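import Mathlib
import Cfsg.Agent.Lib.Helper69.APQ.Defs
import Cfsg.Agent.Lib.Helper75.ItoSolv

set_option autoImplicit false

namespace Cfsg.Agent.Lib.Helper59.APQ

open Equiv Cfsg.Agent.Lib.Helper69.APQ

universe u

section

variable {β : Type u} [Fintype β] [DecidableEq β]

/-- facts about an `11`-cycle with two named fixed points on `13` points -/
theorem c11_facts (hβ : Fintype.card β = 13) (c : Perm β) (hc : c.cycleType = {11})
    (a b : β) (hab : a ≠ b) (ha : c a = a) (hb : c b = b) :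
    c.IsCycle ∧ orderOf c = 11 ∧ ∀ x, c x = x → x = a ∨ x = b := by
  have hcyc : c.IsCycle := by
    rw [← Perm.card_cycleType_eq_one, hc]; rfl
  have hsupp : c.support.card = 11 := by
    rw [← Perm.sum_cycleType, hc]; rfl
  refine ⟨hcyc, by rw [hcyc.orderOf, hsupp], ?_⟩
  intro x hx
  by_contra hcon
  have hcon' : x ≠ a ∧ x ≠ b := by tauto
  have h3 : ({a, b, x} : Finset β) ⊆ c.supportᶜ := by
    intro y hy
    simp only [Finset.mem_insert, Finset.mem_singleton] at hy
    rw [Finset.mem_compl, Perm.mem_support, not_not]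
    rcases hy with rfl | rfl | rfl <;> assumption
  have h4 : ({a, b, x} : Finset β).card = 3 := by
    rw [Finset.card_eq_three]; exact ⟨a, b, x, hab, hcon'.1.symm, hcon'.2.symm, rfl⟩
  have h5 := Finset.card_le_card h3
  rw [Finset.card_compl, hβ, hsupp, h4] at h5
  omega

/-- a permutation fixing `a`, `b` and commuting with the `11`-cycle is a power of it -/
theorem c11_centralizer (hβ : Fintype.card β = 13) (c : Perm β) (hc : c.cycleType = {11})
    (a b : β) (hab : a ≠ b) (ha : c a = a) (hb : c b = b)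
    (h : Perm β) (hha : h a = a) (hhb : h b = b) (hcomm : h * c = c * h) :
    h ∈ Subgroup.zpowers c := by
  obtain ⟨hcyc, hord, hfix⟩ := c11_facts hβ c hc a b hab ha hb
  obtain ⟨d, hd⟩ : ∃ d, c d ≠ d := by
    obtain ⟨d, hd, -⟩ := id hcyc
    exact ⟨d, hd⟩
  have hcommk : ∀ k : ℕ, h * c ^ k = c ^ k * h := fun k =>
    Commute.pow_right (show Commute h c from hcomm) k
  have hhd : c (h d) ≠ h d := by
    intro h1
    have h2 : h (c d) = c (h d) := by
      have := congrArg (fun f : Perm β => f d) hcomm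
      simpa using this
    rw [h1] at h2
    exact hd (h.injective h2)
  obtain ⟨i, hi⟩ := hcyc.exists_pow_eq hd hhd
  rw [Subgroup.mem_zpowers_iff]
  refine ⟨i, ?_⟩
  rw [zpow_natCast]
  ext x
  by_cases hx : c x = x
  · have hxk : (c ^ i) x = x := by
      have : Function.IsFixedPt (⇑c) x := hx
      have h2 := this.iterate i
      rw [← Perm.iterate_eq_pow]
      exact h2
    rcases hfix x hx with rfl | rfl
    · rw [hha, hxk]
    · rw [hhb, hxk]
  · obtain ⟨j, hj⟩ := hcyc.exists_pow_eq hd hx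
    rw [← hj]
    have h1 : h ((c ^ j) d) = (c ^ j) (h d) := by
      have := congrArg (fun f : Perm β => f d) (hcommk j)
      simpa using this
    rw [h1, ← hi, ← Perm.mul_apply, ← Perm.mul_apply, ← pow_add, ← pow_add, add_comm]

/-- a group of even permutations fixing `a`, `b` and normalising the group of an `11`-cycle
has order `11` or `55` -/
theorem card_of_normal_c11 (hβ : Fintype.card β = 13) (H : Subgroup (Perm β))
    (a b : β) (hab : a ≠ b) (hfixH : ∀ h ∈ H, h a = a ∧ h b = b)
    (heven : ∀ h ∈ H, Perm.sign h = 1)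
    (c : Perm β) (hcH : c ∈ H) (hc : c.cycleType = {11})
    (hnorm : ∀ h ∈ H, h * c * h⁻¹ ∈ Subgroup.zpowers c) :
    Nat.card H = 11 ∨ Nat.card H = 55 := by
  obtain ⟨hcyc, hord, hfix⟩ := c11_facts hβ c hc a b hab (hfixH c hcH).1 (hfixH c hcH).2
  have : Fact (Nat.Prime 11) := ⟨by norm_num⟩
  have hPn : ((Subgroup.zpowers c).subgroupOf H).Normal := by
    constructor
    intro n hn h
    rw [Subgroup.mem_subgroupOf] at hn ⊢
    obtain ⟨k, hk⟩ := Subgroup.mem_zpowers_iff.1 hn
    simp only [Subgroup.coe_mul, Subgroup.coe_inv]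
    rw [← hk, ← conj_zpow]
    exact Subgroup.zpow_mem _ (hnorm h h.2) k
  have hle : Subgroup.zpowers c ≤ H := by rw [Subgroup.zpowers_le]; exact hcH
  have hPcard : Nat.card ((Subgroup.zpowers c).subgroupOf H) = 11 := by
    rw [Nat.card_congr (Subgroup.subgroupOfEquivOfLe hle).toEquiv, Nat.card_zpowers, hord]
  have hPcyc : IsCyclic ((Subgroup.zpowers c).subgroupOf H) := isCyclic_of_prime_card hPcard
  have hcP : (⟨c, hcH⟩ : H) ∈ (Subgroup.zpowers c).subgroupOf H := by
    rw [Subgroup.mem_subgroupOf]; exact Subgroup.mem_zpowers c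
  obtain ⟨ψ, hψ⟩ : ∃ ψ : H →* MulAut ((Subgroup.zpowers c).subgroupOf H),
      ψ = MulAut.conjNormal := ⟨_, rfl⟩
  have hker : ψ.ker = (Subgroup.zpowers c).subgroupOf H := by
    ext h
    rw [MonoidHom.mem_ker]
    constructor
    · intro h1
      have h2 := congrArg (fun f : MulAut ((Subgroup.zpowers c).subgroupOf H) =>
        (((f ⟨⟨c, hcH⟩, hcP⟩ : (Subgroup.zpowers c).subgroupOf H) : H) : Perm β)) h1
      rw [hψ] at h2
      simp only [MulAut.conjNormal_apply, MulAut.one_apply, Subgroup.coe_mul,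
        Subgroup.coe_inv] at h2
      rw [Subgroup.mem_subgroupOf]
      apply c11_centralizer hβ c hc a b hab (hfixH c hcH).1 (hfixH c hcH).2 (h : Perm β)
        (hfixH h h.2).1 (hfixH h h.2).2
      calc (h : Perm β) * c = ((h : Perm β) * c * (h : Perm β)⁻¹) * (h : Perm β) := by group
        _ = c * (h : Perm β) := by rw [h2]
    · intro h1
      rw [hψ]
      refine MulEquiv.ext (fun p => ?_)
      apply Subtype.ext
      rw [MulAut.conjNormal_apply, MulAut.one_apply]
      have hp := p.2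
      rw [Subgroup.mem_subgroupOf] at h1 hp
      obtain ⟨k, hk⟩ := Subgroup.mem_zpowers_iff.1 h1
      obtain ⟨l, hl⟩ := Subgroup.mem_zpowers_iff.1 hp
      apply Subtype.ext
      simp only [Subgroup.coe_mul, Subgroup.coe_inv]
      rw [← hk, ← hl]
      group
  have h1 : Nat.card H = 11 * Nat.card ψ.range := by
    have hk : Nat.card ψ.ker = 11 := by rw [hker]; exact hPcard
    rw [← Subgroup.index_ker, ← hk, Subgroup.card_mul_index]
  have h2 : Nat.card ψ.range ∣ 10 := by
    have := Subgroup.card_subgroup_dvd_card ψ.range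
    rw [IsCyclic.card_mulAut, hPcard] at this
    exact this
  have hodd : ¬ 2 ∣ Nat.card H := by
    intro h2dvd
    have : Fact (Nat.Prime 2) := ⟨Nat.prime_two⟩
    obtain ⟨t, ht⟩ := exists_prime_orderOf_dvd_card' 2 h2dvd
    have ht' : orderOf (t : Perm β) = 2 := by rw [Subgroup.orderOf_coe]; exact ht
    obtain ⟨n, hn⟩ := Perm.cycleType_prime_order (σ := (t : Perm β))
      (by rw [ht']; exact Nat.prime_two)
    rw [ht'] at hn
    have hsign := heven t t.2
    rw [Perm.sign_of_cycleType, hn] at hsign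
    simp only [Multiset.sum_replicate, Multiset.card_replicate, smul_eq_mul] at hsign
    have hsupp : (t : Perm β).support.card = (n + 1) * 2 := by
      rw [← Perm.sum_cycleType, hn, Multiset.sum_replicate, smul_eq_mul]
    have hsub : (t : Perm β).support ⊆ c.support := by
      intro x hx
      rw [Perm.mem_support] at hx ⊢
      intro hcx
      rcases hfix x hcx with rfl | rfl
      · exact hx (hfixH t t.2).1
      · exact hx (hfixH t t.2).2
    have hle2 := Finset.card_le_card hsub
    have hsc : c.support.card = 11 := by rw [← hcyc.orderOf]; exact hord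
    have hev : Even (n + 1) := by
      by_contra hodd
      rw [Nat.not_even_iff_odd] at hodd
      have h3 : Odd ((n + 1) * 2 + (n + 1)) := by
        obtain ⟨r, hr⟩ := hodd
        exact ⟨3 * r + 1, by omega⟩
      rw [h3.neg_one_pow] at hsign
      exact absurd hsign (by decide)
    have h3 : 1 < (c.support \ (t : Perm β).support).card := by
      rw [Finset.card_sdiff_of_subset hsub]
      obtain ⟨r, hr⟩ := hev
      omega
    obtain ⟨d₁, hd₁, d₂, hd₂, hne⟩ := Finset.one_lt_card.1 h3
    rw [Finset.mem_sdiff, Perm.mem_support, Perm.mem_support, not_not] at hd₁ hd₂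
    obtain ⟨i, hi⟩ := hcyc.exists_pow_eq hd₁.1 hd₂.1
    have hn1 : (t : Perm β) * c ^ i * (t : Perm β)⁻¹ ∈ Subgroup.zpowers c := by
      rw [← conj_pow]
      exact Subgroup.pow_mem _ (hnorm t t.2) i
    obtain ⟨m, hm⟩ : ∃ m : ℕ, c ^ m = (t : Perm β) * c ^ i * (t : Perm β)⁻¹ := by
      have hfin : IsOfFinOrder c := isOfFinOrder_of_finite c
      have := (hfin.mem_powers_iff_mem_zpowers).2 hn1
      exact (Submonoid.mem_powers_iff _ _).1 this
    have hm2 : (c ^ m) d₁ = (c ^ i) d₁ := by
      rw [hm, Perm.mul_apply, Perm.mul_apply]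
      have h5 : (t : Perm β)⁻¹ d₁ = d₁ := by rw [Perm.inv_eq_iff_eq]; exact hd₁.2.symm
      rw [h5, hi, hd₂.2]
    have hm3 : c ^ m = c ^ i := hcyc.pow_eq_pow_iff.2 ⟨d₁, hd₁.1, hm2⟩
    have hcomm_i : (t : Perm β) * c ^ i = c ^ i * (t : Perm β) := by
      rw [hm3] at hm
      calc (t : Perm β) * c ^ i = ((t : Perm β) * c ^ i * (t : Perm β)⁻¹) * (t : Perm β) := by
            group
        _ = c ^ i * (t : Perm β) := by rw [← hm]
    have hi11 : ¬ 11 ∣ i := by
      intro hdvd
      have h5 : c ^ i = 1 := by rw [← hord] at hdvd; exact orderOf_dvd_iff_pow_eq_one.1 hdvd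
      rw [h5] at hi
      exact hne hi
    have hcop : Nat.Coprime i 11 :=
      ((Nat.Prime.coprime_iff_not_dvd (by norm_num)).2 hi11).symm
    obtain ⟨l, -, hl⟩ := Nat.exists_mul_mod_eq_one_of_coprime hcop (by norm_num)
    have hcl : (c ^ i) ^ l = c := by
      rw [← pow_mul, ← pow_mod_orderOf, hord, hl, pow_one]
    have hcomm : (t : Perm β) * c = c * (t : Perm β) := by
      have h5 := Commute.pow_right (show Commute (t : Perm β) (c ^ i) from hcomm_i) l
      rw [hcl] at h5
      exact h5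
    have htP := c11_centralizer hβ c hc a b hab (hfixH c hcH).1 (hfixH c hcH).2
      (t : Perm β) (hfixH t t.2).1 (hfixH t t.2).2 hcomm
    have h5 := orderOf_dvd_of_mem_zpowers htP
    rw [ht', hord] at h5
    omega
  have h3 : Nat.card ψ.range ∈ Nat.divisors 10 := Nat.mem_divisors.2 ⟨h2, by norm_num⟩
  have h4 : Nat.divisors 10 = {1, 2, 5, 10} := by decide
  rw [h4] at h3
  simp only [Finset.mem_insert, Finset.mem_singleton] at h3
  rcases h3 with h3 | h3 | h3 | h3 <;> rw [h3] at h1 <;> omega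

/-- solvable case: some `11`-cycle of `H` generates a normal subgroup -/
theorem exists_normal_c11 (hβ : Fintype.card β = 13) (H : Subgroup (Perm β))
    (a b : β) (hab : a ≠ b) (hfixH : ∀ h ∈ H, h a = a ∧ h b = b)
    (g : Perm β) (hgH : g ∈ H) (hg : g.cycleType = {11}) (hsolv : Group.IsSolvable H) :
    ∃ c ∈ H, c.cycleType = {11} ∧ ∀ h ∈ H, h * c * h⁻¹ ∈ Subgroup.zpowers c := by
  obtain ⟨hcyc, hord, hfix⟩ := c11_facts hβ g hg a b hab (hfixH g hgH).1 (hfixH g hgH).2
  have hg1 : g ≠ 1 := by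
    intro h; rw [h, orderOf_one] at hord; omega
  have hnt : Nontrivial H := ⟨⟨⟨g, hgH⟩, 1, fun h => hg1 (congrArg Subtype.val h)⟩⟩
  obtain ⟨A, hAn, hAne, hAab⟩ := Cfsg.Agent.Lib.Helper75.exists_normal_abelian_ne_bot hsolv
  obtain ⟨Δ, hΔ⟩ : ∃ Δ : SubMulAction H β, ∀ x, x ∈ Δ ↔ x ≠ a ∧ x ≠ b := by
    refine ⟨{ carrier := {x | x ≠ a ∧ x ≠ b}, smul_mem' := ?_ }, fun x => Iff.rfl⟩
    intro h x hx
    constructor
    · intro h1
      apply hx.1
      have h2 : (h : Perm β) x = (h : Perm β) a := by rw [(hfixH h h.2).1]; exact h1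
      exact (h : Perm β).injective h2
    · intro h1
      apply hx.2
      have h2 : (h : Perm β) x = (h : Perm β) b := by rw [(hfixH h h.2).2]; exact h1
      exact (h : Perm β).injective h2
  have hΔcard : Nat.card Δ = 11 := by
    have e : Δ ≃ {x : β // x ≠ a ∧ x ≠ b} := Equiv.subtypeEquivRight hΔ
    rw [Nat.card_congr e, Nat.card_eq_fintype_card, Fintype.card_subtype]
    have h1 : (Finset.univ.filter fun x : β => x ≠ a ∧ x ≠ b) = ({a, b} : Finset β)ᶜ := by
      ext x; simp
    rw [h1, Finset.card_compl, hβ, Finset.card_pair hab]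
  have hmoved : ∀ x : β, x ≠ a ∧ x ≠ b → g x ≠ x := by
    intro x hx h1
    rcases hfix x h1 with h2 | h2
    · exact hx.1 h2
    · exact hx.2 h2
  have htr : MulAction.IsPretransitive H Δ := by
    constructor
    intro x y
    obtain ⟨i, hi⟩ := hcyc.exists_pow_eq (hmoved x ((hΔ x).1 x.2)) (hmoved y ((hΔ y).1 y.2))
    refine ⟨⟨g ^ i, Subgroup.pow_mem _ hgH i⟩, ?_⟩
    apply Subtype.ext
    exact hi
  have hprim : MulAction.IsPreprimitive H Δ :=
    MulAction.IsPreprimitive.of_prime_card (by rw [hΔcard]; norm_num)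
  obtain ⟨k, hk1⟩ := (Subgroup.ne_bot_iff_exists_ne_one).1 hAne
  obtain ⟨x, hx⟩ : ∃ x : β, ((k : H) : Perm β) x ≠ x := by
    by_contra hcon
    apply hk1
    apply Subtype.ext
    apply Subtype.ext
    ext x
    by_contra h1
    exact hcon ⟨x, h1⟩
  have hxΔ : x ∈ Δ := by
    rw [hΔ]
    constructor
    · intro h1; rw [h1] at hx; exact hx (hfixH _ (k : H).2).1
    · intro h1; rw [h1] at hx; exact hx (hfixH _ (k : H).2).2
  have hfp : MulAction.fixedPoints A Δ ≠ Set.univ := by
    intro h1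
    have h2 : (⟨x, hxΔ⟩ : Δ) ∈ MulAction.fixedPoints A Δ := by rw [h1]; exact Set.mem_univ _
    rw [MulAction.mem_fixedPoints] at h2
    exact hx (congrArg Subtype.val (h2 k))
  have htrA : MulAction.IsPretransitive A Δ :=
    MulAction.IsQuasiPreprimitive.isPretransitive_of_normal hfp
  have h11 : 11 ∣ Nat.card A := by
    have h1 := MulAction.index_stabilizer_of_transitive (G := A) (x := (⟨x, hxΔ⟩ : Δ))
    rw [hΔcard] at h1
    rw [← h1]
    exact Subgroup.index_dvd_card _
  have hp11 : Fact (Nat.Prime 11) := ⟨by norm_num⟩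
  obtain ⟨a', ha'⟩ := exists_prime_orderOf_dvd_card' 11 h11
  have ho : orderOf ((a' : H) : Perm β) = 11 := by
    rw [Subgroup.orderOf_coe, Subgroup.orderOf_coe]; exact ha'
  have hfa := hfixH _ (a' : H).2
  have hct : ((a' : H) : Perm β).cycleType = {11} := by
    obtain ⟨n, hn⟩ := Perm.cycleType_prime_order (σ := ((a' : H) : Perm β))
      (by rw [ho]; norm_num)
    rw [ho] at hn
    have hs : ((a' : H) : Perm β).support.card = (n + 1) * 11 := by
      rw [← Perm.sum_cycleType, hn, Multiset.sum_replicate, smul_eq_mul]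
    have hsub : ((a' : H) : Perm β).support ⊆ g.support := by
      intro y hy
      rw [Perm.mem_support] at hy ⊢
      intro hgy
      rcases hfix y hgy with rfl | rfl
      · exact hy hfa.1
      · exact hy hfa.2
    have h1 := Finset.card_le_card hsub
    rw [hs, ← hcyc.orderOf, hord] at h1
    have h2 : n = 0 := by omega
    rw [h2] at hn
    exact hn
  refine ⟨((a' : H) : Perm β), (a' : H).2, hct, ?_⟩
  intro h hh
  have hmem : (⟨h, hh⟩ : H) * (a' : H) * (⟨h, hh⟩ : H)⁻¹ ∈ A := hAn.conj_mem _ a'.2 _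
  have hcomm := hAab _ hmem _ a'.2
  have hcomm' := congrArg (fun z : H => (z : Perm β)) hcomm
  simp only [Subgroup.coe_mul, Subgroup.coe_inv] at hcomm'
  have hfk := hfixH _ ((⟨h, hh⟩ : H) * (a' : H) * (⟨h, hh⟩ : H)⁻¹).2
  simp only [Subgroup.coe_mul, Subgroup.coe_inv] at hfk
  exact c11_centralizer hβ _ hct a b hab hfa.1 hfa.2 _ hfk.1 hfk.2 hcomm'

end

/-- **[T13K2]** a solvable two-point stabiliser has order `11` or `55`. -/
theorem pkgT13K2 : PkgT13K2.{u} := by
  intro β _ _ G hβ hG g hg hgc a b hab hga hgb hsolv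
  obtain ⟨H, hH⟩ : ∃ H : Subgroup (Perm β), H = (Stab2 G a b).map G.subtype := ⟨_, rfl⟩
  have hcard : Nat.card H = Nat.card (Stab2 G a b) := by
    rw [hH]; exact Subgroup.card_map_of_injective G.subtype_injective
  have hmem : ∀ h, h ∈ H ↔ h ∈ G ∧ h a = a ∧ h b = b := by
    intro h
    rw [hH, Subgroup.mem_map]
    constructor
    · rintro ⟨k, hk, rfl⟩
      rw [Stab2, Subgroup.mem_inf, MulAction.mem_stabilizer_iff,
        MulAction.mem_stabilizer_iff] at hk
      exact ⟨k.2, hk.1, hk.2⟩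
    · rintro ⟨h1, h2, h3⟩
      refine ⟨⟨h, h1⟩, ?_, rfl⟩
      rw [Stab2, Subgroup.mem_inf, MulAction.mem_stabilizer_iff, MulAction.mem_stabilizer_iff]
      exact ⟨h2, h3⟩
  have hsolvH : Group.IsSolvable H := by
    rw [hH]
    exact Group.isSolvable_of_surjective (f := (G.subtype.subgroupMap (Stab2 G a b)))
      (MonoidHom.subgroupMap_surjective _ _)
  rw [← hcard]
  obtain ⟨c, hcH, hcc, hnorm⟩ := exists_normal_c11 hβ H a b hab
    (fun h hh => ((hmem h).1 hh).2) g ((hmem g).2 ⟨hg, hga, hgb⟩) hgc hsolvH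
  exact card_of_normal_c11 hβ H a b hab (fun h hh => ((hmem h).1 hh).2)
    (fun h hh => Perm.mem_alternatingGroup.1 (hG ((hmem h).1 hh).1)) c hcH hcc hnorm

end Cfsg.Agent.Lib.Helper59.APQ
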